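import Mathlib
import Cfsg.Agent.H7.NBpComp
import Cfsg.Agent.H718.NBIH
import Cfsg.Agent.Lib.GenFitting

/-!
# Simple groups with only one `p`-block are of local characteristic `p` (S5002, S5003)

Let `S` be a finite nonabelian simple group without a nonprincipal `p`-block, all smaller nonabelian
simple groups having one.  For a `p`-subgroup `Q ≠ 1` put `C = C_S(Q)`.  Then `O_{p'}(C) = 1`
(`NB_of_pPrimeCore`), `C` has no component (`NB_of_component`), so `F*(C) = O_p(C)`
(`genFit_eq_pCore`) and `C_C(O_p(C)) ≤ O_p(C)` (`centralizer_pCore_le`).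
-/

set_option autoImplicit false
open Cfsg Subgroup

namespace Cfsg.Agent.H646.NB

open Cfsg.Agent.H7.NBp Cfsg.Agent.H718.NBIH
open Cfsg.Agent.Lib.Cores Cfsg.Agent.Lib.GenFitting
open Cfsg.Agent.SignalizersComponents.Components (isComponent_map_equiv
  component_commutator_eq_bot_of_ne)

section

variable {p : ℕ} [hp : Fact p.Prime] {S : Type*} [Group S] [Finite S]

omit [Finite S] in
theorem centralizer_ne_top [IsSimpleGroup S] (hna : ¬ IsMulCommutative S) {Q : Subgroup S} (hQ1 : Q ≠ ⊥) :
    centralizer (Q : Set S) ≠ ⊤ := by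
  intro h
  have h1 : Q ≤ center S := by
    intro q hq
    rw [mem_center_iff]
    intro g
    have hg : g ∈ centralizer (Q : Set S) := by rw [h]; exact mem_top g
    exact ((mem_centralizer_iff.1 hg) q hq).symm
  rcases (inferInstance : (center S).Normal).eq_bot_or_eq_top with h2 | h2
  · exact hQ1 (eq_bot_iff.2 (h2 ▸ h1))
  · apply hna
    refine ⟨⟨fun a b => ?_⟩⟩
    have ha : b ∈ center S := by rw [h2]; exact mem_top b
    exact (mem_center_iff.1 ha) a

theorem card_lt_of_ne_top {H : Subgroup S} (h : H ≠ ⊤) : Nat.card H < Nat.card S := by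
  have h1 : Nat.card H ≤ Nat.card S := Nat.card_le_card_of_injective _ H.subtype_injective
  rcases lt_or_eq_of_le h1 with h2 | h2
  · exact h2
  · exact absurd (Subgroup.eq_top_of_card_eq H h2) h

theorem NB_of_component [IsSimpleGroup S] (hna : ¬ IsMulCommutative S) (ih : IH p (Nat.card S))
    (Q : Subgroup S) (hQ : IsPGroup p Q) (hQ1 : Q ≠ ⊥)
    (K : Subgroup ↥(centralizer (Q : Set S))) (hK : IsComponent K) : NB p S := by
  classical
  have hlt : Nat.card ↥(centralizer (Q : Set S)) < Nat.card S :=
    card_lt_of_ne_top (centralizer_ne_top hna hQ1)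
  generalize hC : centralizer (Q : Set S) = C at K hK hlt
  -- the simple quotient
  have hsimp : IsSimpleGroup (K ⧸ center K) := hK.2.2
  have hperf : Group.IsPerfect K := hK.2.1
  have hna' : ¬ IsMulCommutative (K ⧸ center K) := by
    intro hcomm
    have h3 : Nontrivial (K ⧸ center K) := hsimp.toNontrivial
    have h4 : Group.IsPerfect (K ⧸ center K) := inferInstance
    have h5 := Group.IsPerfect.subsingleton_of_isMulCommutative (G := K ⧸ center K)
    exact not_subsingleton _ h5
  have hcard : Nat.card (K ⧸ center K) < Nat.card S := by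
    refine lt_of_le_of_lt ?_ hlt
    calc Nat.card (K ⧸ center K) ≤ Nat.card K := Nat.card_le_card_of_surjective _ (QuotientGroup.mk'_surjective (center K))
      _ ≤ Nat.card C := Nat.card_le_card_of_injective _ K.subtype_injective
  have hNB : NB p (K ⧸ center K) := ih.use hna' hcard
  let e : K ≃* K.map C.subtype := K.equivMapOfInjective C.subtype C.subtype_injective
  let f : K.map C.subtype →* K ⧸ center K := (QuotientGroup.mk' (center K)).comp e.symm.toMonoidHom
  refine NB.of_component Q hQ (K.map C.subtype) (hC ▸ map_subtype_le K) ?_ f ?_ ?_ hNB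
  · intro c hc
    rw [hC] at hc
    have h1 : IsComponent (K.map (MulAut.conj (⟨c, hc⟩ : C)).toMonoidHom) := isComponent_map_equiv _ hK
    by_cases h2 : K.map (MulAut.conj (⟨c, hc⟩ : C)).toMonoidHom = K
    · left
      rintro _ ⟨k, hk, rfl⟩
      have h3 : (MulAut.conj (⟨c, hc⟩ : C)) k ∈ K := by
        rw [← h2]
        exact mem_map_of_mem _ hk
      exact ⟨_, h3, rfl⟩
    · right
      rintro _ ⟨k, hk, rfl⟩ _ ⟨l, hl, rfl⟩
      have h3 := component_commutator_eq_bot_of_ne h1 hK h2
      rw [commutator_eq_bot_iff_le_centralizer] at h3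
      have h4 := h3 (mem_map_of_mem _ hk)
      rw [mem_centralizer_iff] at h4
      have h5 := h4 l hl
      have h6 := congrArg (Subtype.val) h5
      exact h6.symm
  · exact (QuotientGroup.mk'_surjective _).comp e.symm.surjective
  · intro x hx
    rw [MonoidHom.mem_ker] at hx
    have h1 : e.symm x ∈ center K := by
      rw [← QuotientGroup.ker_mk' (center K), MonoidHom.mem_ker]
      exact hx
    rw [mem_center_iff] at h1 ⊢
    intro y
    have h2 := h1 (e.symm y)
    have h3 := congrArg e h2
    rw [map_mul, map_mul, e.apply_symm_apply, e.apply_symm_apply] at h3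
    exact h3

theorem NB_of_pPrimeCore (Q : Subgroup S) (hQ : IsPGroup p Q)
    (h : pPrimeCore p ↥(centralizer (Q : Set S)) ≠ ⊥) : NB p S := by
  set C := centralizer (Q : Set S) with hC
  refine NB.of_pprime_le Q hQ ((pPrimeCore p C).map C.subtype) (map_subtype_le _) ?_ ?_ ?_
  · rintro c hc _ ⟨k, hk, rfl⟩
    have h1 : (⟨c, hc⟩ : C) * k * (⟨c, hc⟩ : C)⁻¹ ∈ pPrimeCore p C :=
      (pPrimeCore_normal (G := C) p).conj_mem k hk _
    exact ⟨_, h1, rfl⟩
  · rw [Nat.card_congr ((pPrimeCore p C).equivMapOfInjective C.subtype C.subtype_injective).toEquiv.symm]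
    intro hd
    have h1 := pPrimeCore_coprime (G := C) p
    exact hp.out.one_lt.ne' (Nat.eq_one_of_dvd_coprimes h1 hd dvd_rfl)
  · intro h1
    apply h
    rw [eq_bot_iff]
    intro x hx
    have h2 : C.subtype x ∈ (pPrimeCore p C).map C.subtype := mem_map_of_mem _ hx
    rw [h1, mem_bot] at h2
    exact mem_bot.2 (Subtype.ext h2)

/-- If `O_{p'}(C) = 1` and `C` has no component then `F*(C) = O_p(C)`. -/
theorem genFit_eq_of {C : Type*} [Group C] [Finite C] (h1 : pPrimeCore p C = ⊥)
    (h2 : ∀ K : Subgroup C, ¬ IsComponent K) : generalizedFittingSubgroup C = pCore p C := by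
  have hl : layer C = ⊥ := by
    rw [layer_def, eq_bot_iff]
    refine sSup_le fun K hK => ?_
    exact absurd hK (h2 K)
  rw [genFitting_def, hl, bot_sup_eq]
  apply le_antisymm _ (pCore_le_fittingSubgroup p)
  rw [fittingSubgroup_eq_iSup_pCore]
  refine iSup_le fun r' => ?_
  obtain ⟨r, hr⟩ := r'
  show pCore r C ≤ pCore p C
  by_cases hrp : r = p
  · rw [hrp]
  · have hr' : Fact r.Prime := ⟨hr⟩
    have h3 : pCore r C ≤ pPrimeCore p C := by
      refine le_pPrimeCore (pCore_normal r C) ?_
      obtain ⟨k, hk⟩ := (IsPGroup.iff_card (p := r)).1 (pCore_isPGroup (G := C) r)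
      rw [hk]
      exact Nat.Coprime.pow_left _ ((Nat.coprime_primes hr hp.out).2 hrp)
    rw [h1] at h3
    exact h3.trans bot_le

/-- **Local characteristic `p`.** -/
theorem genFit_eq_pCore [IsSimpleGroup S] (hna : ¬ IsMulCommutative S) (ih : IH p (Nat.card S))
    (hS : ¬ NB p S) (Q : Subgroup S) (hQ : IsPGroup p Q) (hQ1 : Q ≠ ⊥) :
    generalizedFittingSubgroup ↥(centralizer (Q : Set S)) = pCore p ↥(centralizer (Q : Set S)) := by
  apply genFit_eq_of
  · by_contra h
    exact hS (NB_of_pPrimeCore Q hQ h)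
  · intro K hK
    exact hS (NB_of_component hna ih Q hQ hQ1 K hK)

theorem centralizer_pCore_le [IsSimpleGroup S] (hna : ¬ IsMulCommutative S) (ih : IH p (Nat.card S))
    (hS : ¬ NB p S) (Q : Subgroup S) (hQ : IsPGroup p Q) (hQ1 : Q ≠ ⊥) :
    centralizer (pCore p ↥(centralizer (Q : Set S)) : Set ↥(centralizer (Q : Set S))) ≤
      pCore p ↥(centralizer (Q : Set S)) := by
  have h := centralizer_genFitting_le (G := ↥(centralizer (Q : Set S)))
  rwa [genFit_eq_pCore hna ih hS Q hQ hQ1] at h

end

end Cfsg.Agent.H646.NB
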